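import Cfsg.Agent.H419.MinDeg
import Cfsg.Agent.H619.R4.Defs

/-!
# S4554: real degrees from representations (helper625)

* `rd_of_real` : a faithful real representation of minimal degree `N`;
* `rd_of_unique` : an irreducible complex representation equivalent to its complex conjugate.
-/

set_option autoImplicit false

namespace Cfsg.Agent.H625.R4

open Cfsg Cfsg.Agent.H619.R4 Cfsg.Agent.Characters Cfsg.Agent.H419.MinDeg

universe u

variable {G : Type u} [Group G]

theorem cplx_im {n : ℕ} (ρ : Representation ℝ G (Fin n → ℝ)) (g : G) : ((cplx ρ).character g).im = 0 := by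
  have h1 : (cplx ρ).character g = algebraMap ℝ ℂ ((LinearMap.toMatrix' (ρ g)).trace) := by
    show LinearMap.trace ℂ _ (Matrix.toLin' ((LinearMap.toMatrix' (ρ g)).map (algebraMap ℝ ℂ))) = _
    rw [Matrix.trace_toLin'_eq, Matrix.trace, Matrix.trace, map_sum]
    rfl
  rw [h1]
  exact Complex.ofReal_im _

/-- A faithful real representation of degree `N`, when all complex representations of degree `< N` are trivial. -/
theorem rd_of_real [Finite G] [Nontrivial G] {N : ℕ}
    (hmin : ∀ (n : ℕ) (ρ : Representation ℂ G (Fin n → ℂ)), n < N → ∀ g, ρ g = 1)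
    (ρ : Representation ℝ G (Fin N → ℝ)) (hρ : Function.Injective ρ) : RD G ⊤ N := by
  have h1 : (cplx ρ).character 1 = (N : ℂ) := by
    rw [Representation.char_one]
    simp
  obtain ⟨x, hx⟩ := exists_ne (1 : G)
  have hxN : (cplx ρ).character x ≠ N := by
    intro h
    have h2 := (Cfsg.Agent.S0139.result (cplx ρ) x).1 (by rw [h, Module.finrank_fin_fun])
    have h3 : cplx ρ x = 1 := h2
    apply hx
    apply hρ
    rw [cplx_eq_one h3, map_one]
  refine ⟨⟨(cplx ρ).character, irr_of_min hmin ⟨N, cplx ρ, rfl⟩ h1 hxN⟩, fun g => cplx_im ρ g, ⟨x, trivial, ?_⟩, ?_⟩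
  · show (cplx ρ).character x ≠ (cplx ρ).character 1
    rw [h1]
    exact hxN
  · exact Cfsg.Agent.Blocks.Basic.charDegree_of_eq h1

/-- The representation attached to a homomorphism to `GL_N(ℂ)`. -/
noncomputable def repOf {N : ℕ} (ρ : G →* Matrix.GeneralLinearGroup (Fin N) ℂ) : Representation ℂ G (Fin N → ℂ) where
  toFun g := Matrix.toLin' (ρ g : Matrix (Fin N) (Fin N) ℂ)
  map_one' := by
    rw [map_one, Units.val_one, Matrix.toLin'_one]
    rfl
  map_mul' g h := by
    rw [map_mul, Units.val_mul, Matrix.toLin'_mul]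
    rfl

theorem repOf_char {N : ℕ} (ρ : G →* Matrix.GeneralLinearGroup (Fin N) ℂ) (g : G) :
    (repOf ρ).character g = (ρ g : Matrix (Fin N) (Fin N) ℂ).trace := by
  show LinearMap.trace ℂ _ (Matrix.toLin' (ρ g : Matrix (Fin N) (Fin N) ℂ)) = _
  rw [Matrix.trace_toLin'_eq]

theorem repOf_irr {N : ℕ} (hN : 0 < N) (ρ : G →* Matrix.GeneralLinearGroup (Fin N) ℂ)
    (h : ∀ W : Submodule ℂ (Fin N → ℂ), (∀ g : G, ∀ v ∈ W, (ρ g : Matrix (Fin N) (Fin N) ℂ).mulVec v ∈ W) →
      W = ⊥ ∨ W = ⊤) : (repOf ρ).IsIrreducible := by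
  have hb : (⊥ : Subrepresentation (repOf ρ)).toSubmodule = ⊥ := rfl
  have ht : (⊤ : Subrepresentation (repOf ρ)).toSubmodule = ⊤ := rfl
  refine { exists_pair_ne := ⟨⊥, ⊤, ?_⟩, eq_bot_or_eq_top := ?_ }
  · intro e
    have h1 := congrArg Subrepresentation.toSubmodule e
    rw [hb, ht] at h1
    have h2 : (fun _ => 1 : Fin N → ℂ) ∈ (⊤ : Submodule ℂ (Fin N → ℂ)) := trivial
    rw [← h1, Submodule.mem_bot] at h2
    exact one_ne_zero (congrFun h2 ⟨0, hN⟩)
  · intro S
    rcases h S.toSubmodule (fun g x hx => S.apply_mem_toSubmodule g hx) with h1 | h1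
    · left; exact Subrepresentation.toSubmodule_injective (h1.trans hb.symm)
    · right; exact Subrepresentation.toSubmodule_injective (h1.trans ht.symm)

/-- An irreducible complex representation of degree `N`, nontrivial and equivalent to its complex conjugate. -/
theorem rd_of_unique [Finite G] [Nontrivial G] {N : ℕ} (hN : 0 < N) (ρ : G →* Matrix.GeneralLinearGroup (Fin N) ℂ)
    (hρ : Function.Injective ρ)
    (h : ∀ W : Submodule ℂ (Fin N → ℂ), (∀ g : G, ∀ v ∈ W, (ρ g : Matrix (Fin N) (Fin N) ℂ).mulVec v ∈ W) →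
      W = ⊥ ∨ W = ⊤)
    (huniq : ∀ ρ' : G →* Matrix.GeneralLinearGroup (Fin N) ℂ, Function.Injective ρ' →
      ∃ P : Matrix.GeneralLinearGroup (Fin N) ℂ, ∀ g : G, ρ' g = P * ρ g * P⁻¹) : RD G ⊤ N := by
  have hirr := repOf_irr hN ρ h
  have h1 : (repOf ρ).character 1 = (N : ℂ) := by
    rw [Representation.char_one]
    simp
  obtain ⟨x, hx⟩ := exists_ne (1 : G)
  -- the conjugate representation
  obtain ⟨P, hP⟩ := huniq ((Matrix.GeneralLinearGroup.map (starRingEnd ℂ)).comp ρ) (by
    intro a b hab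
    apply hρ
    have h2 : Matrix.GeneralLinearGroup.map (starRingEnd ℂ) (ρ a) =
        Matrix.GeneralLinearGroup.map (starRingEnd ℂ) (ρ b) := hab
    apply Units.ext
    ext i j
    have h3 := congrArg (fun M : Matrix.GeneralLinearGroup (Fin N) ℂ => (M : Matrix (Fin N) (Fin N) ℂ) i j) h2
    exact (starRingEnd ℂ).injective h3)
  have him : ∀ g, ((repOf ρ).character g).im = 0 := by
    intro g
    rw [← Complex.conj_eq_iff_im, repOf_char]
    have h2 := hP g
    have h3 : ((Matrix.GeneralLinearGroup.map (starRingEnd ℂ) (ρ g) : Matrix.GeneralLinearGroup (Fin N) ℂ) :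
        Matrix (Fin N) (Fin N) ℂ).trace = (ρ g : Matrix (Fin N) (Fin N) ℂ).trace := by
      have h4 : Matrix.GeneralLinearGroup.map (starRingEnd ℂ) (ρ g) = P * ρ g * P⁻¹ := h2
      rw [h4, Units.val_mul, Units.val_mul, Matrix.trace_mul_comm, ← mul_assoc, ← Units.val_mul, inv_mul_cancel,
        Units.val_one, one_mul]
    refine Eq.trans ?_ h3
    rw [Matrix.trace, Matrix.trace, map_sum]
    rfl
  refine ⟨⟨(repOf ρ).character, ⟨N, repOf ρ, hirr, rfl⟩⟩, him, ⟨x, trivial, ?_⟩, ?_⟩
  · show (repOf ρ).character x ≠ (repOf ρ).character 1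
    intro h5
    have h2 := (Cfsg.Agent.S0139.result (repOf ρ) x).1 (by rw [h5, h1, Module.finrank_fin_fun])
    apply hx
    apply hρ
    rw [map_one]
    apply Units.ext
    apply Matrix.toLin'.injective
    rw [Units.val_one, Matrix.toLin'_one]
    exact h2
  · exact Cfsg.Agent.Blocks.Basic.charDegree_of_eq h1

end Cfsg.Agent.H625.R4
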